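import Mathlib
import Cfsg.Prelude.Def_Solvable
import Cfsg.Prelude.Def_CaseTheorems
import Cfsg.Prelude.Def_Perm
import Cfsg.Prelude.Def_Transfer
import Cfsg.Agent.Lib.Helper49.HUP.Defs

/-!
# SAF project (S4025: equal-order p-subgroups conjugate, elementary abelian Sylow normalizer)

Interface file (this file, `Iface.lean`, is THE interface; `Defs.lean` is an earlier draft with a
mis-stated `PkgT1Div` and is not used): definitions and one `Prop` per package.  The hub is the statement of S3360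
(Huppert, transitive case), taken as a hypothesis `HubT`.
-/

set_option autoImplicit false

universe u v

namespace Cfsg.Agent.Lib.Helper49.SAFI

open Cfsg.Agent.Lib.Helper49.HUP

/-- the literal type of S3360 (Huppert: solvable linear groups transitive on non-zero vectors) -/
def HubT : Prop :=
  ∀ (q : ℕ) [Fact q.Prime] {V : Type u} [AddCommGroup V] [Module (ZMod q) V] [Finite V]
    [Nontrivial V] {G : Type v} [Group G] [Finite G] (_ : Group.IsSolvable G)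
    (ρ : G →* (V ≃ₗ[ZMod q] V)) (_ : Function.Injective ρ)
    (_ : ∀ v w : V, v ≠ 0 → w ≠ 0 → ∃ g : G, ρ g v = w),
    (∃ (F : Type) (_ : Field F) (_ : Fintype F) (e : V ≃+ F),
        ∀ g : G, ∃ (a : F) (σ : F ≃+* F), ∀ v : V, e (ρ g v) = a * σ (e v)) ∨
    Nat.card V ∈ ({9, 25, 49, 121, 529, 81} : Set ℕ)

/-- the abstract situation: `Q` is a normal elementary abelian Sylow `p`-subgroup of order `p ^ n`
of `N`, and subgroups of `Q` of equal order are conjugate in `N` -/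
structure Setup (p n : ℕ) {N : Type v} [Group N] (Q : Subgroup N) : Prop where
  normal : Q.Normal
  pgroup : IsPGroup p Q
  cop : (Nat.card Q).Coprime Q.index
  comm : ∀ x ∈ Q, ∀ y ∈ Q, x * y = y * x
  exp : ∀ x ∈ Q, x ^ p = 1
  card : Nat.card Q = p ^ n
  conj : ∀ A B : Subgroup N, A ≤ Q → B ≤ Q → Nat.card A = Nat.card B →
    ∃ g : N, B = A.map (MulAut.conj g).toMonoidHom

/-- `ψ` identifies `Q` with the `ZMod p`-space `V`, and `ρ` is the conjugation action of `N` -/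
def IsLin {p : ℕ} {N : Type v} [Group N] (Q : Subgroup N) {V : Type u} [AddCommGroup V]
    [Module (ZMod p) V] (ψ : Q ≃ V) (ρ : N →* (V ≃ₗ[ZMod p] V)) : Prop :=
  (∀ x y : Q, ψ (x * y) = ψ x + ψ y) ∧
    ∀ (g : N) (x : Q) (h : g * (x : N) * g⁻¹ ∈ Q), ρ g (ψ x) = ψ ⟨g * (x : N) * g⁻¹, h⟩

/-- transitive on the lines -/
def Trans1 {p : ℕ} {V : Type u} [AddCommGroup V] [Module (ZMod p) V] {N : Type v} [Group N]
    (ρ : N →* (V ≃ₗ[ZMod p] V)) : Prop :=
  ∀ v w : V, v ≠ 0 → w ≠ 0 → ∃ (g : N) (c : ZMod p), ρ g v = c • w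

/-- transitive on the additive subgroups of order `p ^ 2` -/
def Trans2 {p : ℕ} {V : Type u} [AddCommGroup V] [Module (ZMod p) V] {N : Type v} [Group N]
    (ρ : N →* (V ≃ₗ[ZMod p] V)) : Prop :=
  ∀ A B : AddSubgroup V, Nat.card A = p ^ 2 → Nat.card B = p ^ 2 →
    ∃ g : N, ∀ v : V, v ∈ A ↔ ρ g v ∈ B

/-! ### packages -/

/-- [BR] bridge from the hypotheses of S4025 -/
def PkgBr : Prop :=
  ∀ {G : Type v} [Group G] [Finite G] {p : ℕ} [Fact p.Prime]
    (_ : ∀ H K : Subgroup G, IsPGroup p H → IsPGroup p K → Nat.card H = Nat.card K →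
      ∃ g : G, K = H.map (MulAut.conj g).toMonoidHom) (P : Sylow p G) (n : ℕ)
    (_ : Cfsg.IsElementaryAbelian p (P : Subgroup G)) (_ : Nat.card P = p ^ n),
    Setup p n ((P : Subgroup G).subgroupOf (Subgroup.normalizer ((P : Subgroup G) : Set G)))

/-- [LIN] linearisation -/
def PkgLin : Prop :=
  ∀ {p n : ℕ} [Fact p.Prime] {N : Type v} [Group N] [Finite N] (Q : Subgroup N), Setup p n Q →
    ∃ (V : Type v) (_ : AddCommGroup V) (_ : Module (ZMod p) V) (_ : Finite V) (ψ : Q ≃ V)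
      (ρ : N →* (V ≃ₗ[ZMod p] V)), IsLin Q ψ ρ

/-- [LTR] translation of the conjugacy hypothesis -/
def PkgLtr : Prop :=
  ∀ {p n : ℕ} [Fact p.Prime] {N : Type v} [Group N] [Finite N] (Q : Subgroup N) {V : Type u}
    [AddCommGroup V] [Module (ZMod p) V] (ψ : Q ≃ V) (ρ : N →* (V ≃ₗ[ZMod p] V)),
    Setup p n Q → IsLin Q ψ ρ → Trans1 ρ ∧ Trans2 ρ ∧ Nat.card V = p ^ n

/-- [KER] the `p'`-core acts trivially, and the order of the quotient -/
def PkgKer : Prop :=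
  ∀ {p n : ℕ} [Fact p.Prime] {N : Type v} [Group N] [Finite N] (Q : Subgroup N) {V : Type u}
    [AddCommGroup V] [Module (ZMod p) V] (ψ : Q ≃ V) (ρ : N →* (V ≃ₗ[ZMod p] V)),
    Setup p n Q → IsLin Q ψ ρ →
    Cfsg.pPrimeCore p N ≤ ρ.ker ∧
      Nat.card (N ⧸ Cfsg.pPrimeCore p N) = Nat.card V * Nat.card ρ.range

/-- [EMB] the semi-affine embedding -/
def PkgEmb : Prop :=
  ∀ {p n : ℕ} [Fact p.Prime] {N : Type v} [Group N] [Finite N] (Q : Subgroup N) {V : Type u}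
    [AddCommGroup V] [Module (ZMod p) V] (ψ : Q ≃ V) (ρ : N →* (V ≃ₗ[ZMod p] V)),
    Setup p n Q → n ≠ 0 → IsLin Q ψ ρ → Semi0 ρ →
    ∃ f : N ⧸ Cfsg.pPrimeCore p N →* ↥(Cfsg.semiaffineGroup (GaloisField p n)),
      Function.Injective f

/-- [HAPP] application of the hub -/
def PkgHApp : Prop :=
  HubT.{u, u} → ∀ {p : ℕ} [Fact p.Prime] {V : Type u} [AddCommGroup V] [Module (ZMod p) V]
    [Finite V] [Nontrivial V] {N : Type v} [Group N] [Finite N] (ρ : N →* (V ≃ₗ[ZMod p] V)),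
    Group.IsSolvable ρ.range → Trans1 ρ →
    Semi0 ρ ∨ Nat.card V ∈ ({9, 25, 49, 121, 529, 81} : Set ℕ)

/-- [SDIV] the divisibility forced by transitivity on planes -/
def PkgSDiv : Prop :=
  ∀ {p n : ℕ} [Fact p.Prime] {V : Type u} [AddCommGroup V] [Module (ZMod p) V] [Finite V]
    {N : Type v} [Group N] [Finite N] (ρ : N →* (V ≃ₗ[ZMod p] V)),
    Semi0 ρ → Trans2 ρ → Nat.card V = p ^ n → 2 ≤ n → (p ^ (n - 1) - 1) ∣ n * (p ^ 2 - 1)

/-- [ARITH] -/
def PkgArith : Prop :=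
  ∀ (p n : ℕ), p.Prime → 3 ≤ n → (p ^ (n - 1) - 1) ∣ n * (p ^ 2 - 1) → n = 3 ∨ (n = 5 ∧ p = 2)

/-- [ARITH81] -/
def PkgArith81 : Prop :=
  ∀ (p n : ℕ), p.Prime → 3 ≤ n → p ^ n ∈ ({9, 25, 49, 121, 529, 81} : Set ℕ) → p = 3 ∧ n = 4

/-- [ORD] the order of a semilinear group -/
def PkgOrd : Prop :=
  ∀ {p n : ℕ} [Fact p.Prime] {V : Type u} [AddCommGroup V] [Module (ZMod p) V] [Finite V]
    {N : Type v} [Group N] [Finite N] (ρ : N →* (V ≃ₗ[ZMod p] V)),
    Semi0 ρ → Nat.card V = p ^ n → n ≠ 0 → Nat.card ρ.range ∣ n * (p ^ n - 1)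

/-- [T1DIV] -/
def PkgT1Div : Prop :=
  ∀ {V : Type u} [AddCommGroup V] [Module (ZMod 2) V] [Finite V] [Nontrivial V]
    {N : Type v} [Group N] [Finite N] (ρ : N →* (V ≃ₗ[ZMod 2] V)),
    Trans1 ρ → (Nat.card V - 1) ∣ Nat.card ρ.range

/-- [T2DIV] -/
def PkgT2Div : Prop :=
  ∀ {p n : ℕ} [Fact p.Prime] {V : Type u} [AddCommGroup V] [Module (ZMod p) V] [Finite V]
    {N : Type v} [Group N] [Finite N] (ρ : N →* (V ≃ₗ[ZMod p] V)),
    Trans2 ρ → Nat.card V = p ^ n → 2 ≤ n →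
    ((p ^ n - 1) * (p ^ n - p)) ∣ Nat.card ρ.range * ((p ^ 2 - 1) * (p ^ 2 - p))

/-- [EXC81] -/
def PkgExc81 : Prop :=
  ∀ {V : Type u} [AddCommGroup V] [Module (ZMod 3) V] [Finite V]
    {N : Type v} [Group N] [Finite N] (ρ : N →* (V ≃ₗ[ZMod 3] V)),
    Nat.card V = 81 → Group.IsSolvable ρ.range → 65 ∣ Nat.card ρ.range → False

/-- [ISO2] -/
def PkgIso2 : Prop :=
  ∀ {X : Type v} [Group X] [Finite X] (f : X →* ↥(Cfsg.semiaffineGroup (GaloisField 2 3))),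
    Function.Injective f → ∀ r : ℕ, r ∣ 21 → 7 ∣ r → Nat.card X = 8 * r →
    Nonempty (X ≃* Cfsg.semiaffineGroup (GaloisField 2 3)) ∨
      Nonempty (X ≃* Cfsg.affineGroup (GaloisField 2 3))

/-- [ISO5] -/
def PkgIso5 : Prop :=
  ∀ {X : Type v} [Group X] [Finite X] (f : X →* ↥(Cfsg.semiaffineGroup (GaloisField 2 5))),
    Function.Injective f → ∀ r : ℕ, r ∣ 155 → 155 ∣ r → Nat.card X = 32 * r →
    Nonempty (X ≃* Cfsg.semiaffineGroup (GaloisField 2 5))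

end Cfsg.Agent.Lib.Helper49.SAFI
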