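import Mathlib
import Cfsg.Agent.Lib.Helper49.SAF.Iface

/-!
# SAF project: assembly with the corrected `[KER]` package (`n ≠ 0`)
-/

set_option autoImplicit false

universe u v

namespace Cfsg.Agent.Lib.Helper49.SAFI

open Cfsg.Agent.Lib.Helper49.HUP

/-- [KER] with the hypothesis `n ≠ 0` (the form that was delivered) -/
def PkgKer2 : Prop :=
  ∀ {p n : ℕ} [Fact p.Prime] {N : Type v} [Group N] [Finite N] (Q : Subgroup N) {V : Type u}
    [AddCommGroup V] [Module (ZMod p) V] (ψ : Q ≃ V) (ρ : N →* (V ≃ₗ[ZMod p] V)),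
    Setup p n Q → n ≠ 0 → IsLin Q ψ ρ →
    Cfsg.pPrimeCore p N ≤ ρ.ker ∧
      Nat.card (N ⧸ Cfsg.pPrimeCore p N) = Nat.card V * Nat.card ρ.range

/-- the abstract core of S4025 -/
theorem saf_core2 (hub : HubT.{v, v}) (lin : PkgLin.{v}) (ltr : PkgLtr.{v, v})
    (ker : PkgKer2.{v, v}) (emb : PkgEmb.{v, v}) (happ : PkgHApp.{v, v}) (sdiv : PkgSDiv.{v, v})
    (arith : PkgArith) (arith81 : PkgArith81) (ord : PkgOrd.{v, v}) (t1 : PkgT1Div.{v, v})
    (t2 : PkgT2Div.{v, v}) (exc : PkgExc81.{v, v}) (iso2 : PkgIso2.{v}) (iso5 : PkgIso5.{v})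
    {p n : ℕ} [Fact p.Prime] {N : Type v} [Group N] [Finite N] (Q : Subgroup N)
    (hS : Setup p n Q) (hn : 3 ≤ n)
    (hsolv : Group.IsSolvable (N ⧸ Cfsg.pPrimeCore p N)) :
    (n = 3 ∧ (∃ f : N ⧸ Cfsg.pPrimeCore p N →* ↥(Cfsg.semiaffineGroup (GaloisField p 3)),
        Function.Injective f) ∧
      (p = 2 → Nonempty (N ⧸ Cfsg.pPrimeCore p N ≃* Cfsg.semiaffineGroup (GaloisField 2 3)) ∨
               Nonempty (N ⧸ Cfsg.pPrimeCore p N ≃* Cfsg.affineGroup (GaloisField 2 3)))) ∨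
    (n = 5 ∧ p = 2 ∧
      Nonempty (N ⧸ Cfsg.pPrimeCore p N ≃* Cfsg.semiaffineGroup (GaloisField 2 5))) := by
  classical
  obtain ⟨V, iA, iM, iF, ψ, ρ, hlin⟩ := lin Q hS
  obtain ⟨ht1, ht2, hcardV⟩ := ltr Q ψ ρ hS hlin
  obtain ⟨hker, hcardNK⟩ := ker Q ψ ρ hS (by omega) hlin
  have hp : p.Prime := Fact.out
  have hntV : Nontrivial V := by
    apply (Finite.one_lt_card_iff_nontrivial).mp
    rw [hcardV]
    exact Nat.one_lt_pow (by omega) hp.one_lt
  have hsolR : Group.IsSolvable ρ.range := by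
    have hk : Cfsg.pPrimeCore p N ≤ ρ.rangeRestrict.ker := by
      intro x hx
      have h1 : ρ x = 1 := hker hx
      exact MonoidHom.mem_ker.mpr (Subtype.ext h1)
    have hsurj : Function.Surjective
        (QuotientGroup.lift (Cfsg.pPrimeCore p N) ρ.rangeRestrict hk) := by
      intro y
      obtain ⟨g, hg⟩ := ρ.rangeRestrict_surjective y
      exact ⟨QuotientGroup.mk g, hg⟩
    exact Group.isSolvable_of_surjective hsurj
  rcases happ hub ρ hsolR ht1 with hsemi | hexc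
  · have hdiv := sdiv ρ hsemi ht2 hcardV (by omega)
    obtain ⟨f, hf⟩ := emb Q ψ ρ hS (by omega) hlin hsemi
    have hord := ord ρ hsemi hcardV (by omega)
    rcases arith p n hp hn hdiv with h3 | ⟨h5, h2⟩
    · subst h3
      refine Or.inl ⟨rfl, ⟨f, hf⟩, fun hp2 => ?_⟩
      subst hp2
      have h7 := t1 ρ ht1
      rw [hcardV] at h7 hcardNK
      exact iso2 f hf (Nat.card ρ.range) (by simpa using hord) (by simpa using h7)
        (by simpa using hcardNK)
    · subst h5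
      subst h2
      refine Or.inr ⟨rfl, rfl, ?_⟩
      have h155 := t2 ρ ht2 hcardV (by omega)
      rw [hcardV] at hcardNK
      have hd1 : Nat.card ρ.range ∣ 155 := by simpa using hord
      have hd2 : 155 ∣ Nat.card ρ.range := by
        have h930 : (930 : ℕ) ∣ Nat.card ρ.range * 6 := by simpa using h155
        obtain ⟨k, hk⟩ := h930
        exact ⟨k, by omega⟩
      exact iso5 f hf (Nat.card ρ.range) hd1 hd2 (by simpa using hcardNK)
  · exfalso
    rw [hcardV] at hexc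
    obtain ⟨rfl, rfl⟩ := arith81 p n hp hn hexc
    have h := t2 ρ ht2 hcardV (by omega)
    have h65 : 65 ∣ Nat.card ρ.range := by
      have h6240 : (6240 : ℕ) ∣ Nat.card ρ.range * 48 := by simpa using h
      obtain ⟨k, hk⟩ := h6240
      exact ⟨2 * k, by omega⟩
    exact exc ρ (by rw [hcardV]; norm_num) hsolR h65

/-- assembly: the statement of S4025 -/
theorem saf_main2 (hub : HubT.{v, v}) (br : PkgBr.{v}) (lin : PkgLin.{v}) (ltr : PkgLtr.{v, v})
    (ker : PkgKer2.{v, v}) (emb : PkgEmb.{v, v}) (happ : PkgHApp.{v, v}) (sdiv : PkgSDiv.{v, v})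
    (arith : PkgArith) (arith81 : PkgArith81) (ord : PkgOrd.{v, v}) (t1 : PkgT1Div.{v, v})
    (t2 : PkgT2Div.{v, v}) (exc : PkgExc81.{v, v}) (iso2 : PkgIso2.{v}) (iso5 : PkgIso5.{v})
    {G : Type v} [Group G] [Finite G]
    {p : ℕ} [Fact p.Prime] (hC : ∀ H K : Subgroup G, IsPGroup p H → IsPGroup p K → Nat.card H = Nat.card K →
      ∃ g : G, K = H.map (MulAut.conj g).toMonoidHom) (P : Sylow p G) (n : ℕ) (hn : 3 ≤ n)
    (hel : Cfsg.IsElementaryAbelian p (P : Subgroup G)) (hcard : Nat.card P = p ^ n)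
    (N : Subgroup G) (hN : N = Subgroup.normalizer ((P : Subgroup G) : Set G))
    (hsolv : Group.IsSolvable (↥N ⧸ Cfsg.pPrimeCore p ↥N)) :
    (n = 3 ∧ (∃ f : ↥N ⧸ Cfsg.pPrimeCore p ↥N →* ↥(Cfsg.semiaffineGroup (GaloisField p 3)), Function.Injective f) ∧
      (p = 2 → Nonempty (↥N ⧸ Cfsg.pPrimeCore p ↥N ≃* Cfsg.semiaffineGroup (GaloisField 2 3)) ∨
               Nonempty (↥N ⧸ Cfsg.pPrimeCore p ↥N ≃* Cfsg.affineGroup (GaloisField 2 3)))) ∨
    (n = 5 ∧ p = 2 ∧ Nonempty (↥N ⧸ Cfsg.pPrimeCore p ↥N ≃* Cfsg.semiaffineGroup (GaloisField 2 5))) := by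
  subst hN
  exact saf_core2 hub lin ltr ker emb happ sdiv arith arith81 ord t1 t2 exc iso2 iso5
    ((P : Subgroup G).subgroupOf (Subgroup.normalizer ((P : Subgroup G) : Set G)))
    (br hC P n hel hcard) hn hsolv

end Cfsg.Agent.Lib.Helper49.SAFI
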