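import Mathlib
import Cfsg.Agent.Lib.Helper49.SAF.Asm2
import Cfsg.Agent.Lib.Helper62.SAF.Br
import Cfsg.Agent.Lib.Helper62.SAF.Ltr
import Cfsg.Agent.Lib.Helper74.SAF.Lin
import Cfsg.Agent.Lib.Helper74.SAF.T2Div
import Cfsg.Agent.Lib.Helper84.SAF.HApp
import Cfsg.Agent.Lib.Helper84.SAF.Ker
import Cfsg.Agent.Lib.Helper84.SAF.T1Div
import Cfsg.Agent.Lib.Helper93.SAF.Exc81
import Cfsg.Agent.Lib.Helper93.SAF.Ord
import Cfsg.Agent.Lib.Helper93.SAF.SDiv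
import Cfsg.Agent.Lib.Helper96.SAF.Arith
import Cfsg.Agent.Lib.Helper96.SAF.Iso
import Cfsg.Agent.Lib.Helper97.SAF.Emb

/-!
# SAF project: the statement of S4025 from the hub S3360 alone (all packages plugged in)
-/

set_option autoImplicit false

universe v

namespace Cfsg.Agent.Lib.Helper49.SAFI

/-- the statement of S4025, conditional only on the hub (the statement of S3360) -/
theorem saf_of_hub (hub : HubT.{v, v})
    {G : Type v} [Group G] [Finite G]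
    {p : ℕ} [Fact p.Prime] (hC : ∀ H K : Subgroup G, IsPGroup p H → IsPGroup p K → Nat.card H = Nat.card K →
      ∃ g : G, K = H.map (MulAut.conj g).toMonoidHom) (P : Sylow p G) (n : ℕ) (hn : 3 ≤ n)
    (hel : Cfsg.IsElementaryAbelian p (P : Subgroup G)) (hcard : Nat.card P = p ^ n)
    (N : Subgroup G) (hN : N = Subgroup.normalizer ((P : Subgroup G) : Set G))
    (hsolv : Group.IsSolvable (↥N ⧸ Cfsg.pPrimeCore p ↥N)) :
    (n = 3 ∧ (∃ f : ↥N ⧸ Cfsg.pPrimeCore p ↥N →* ↥(Cfsg.semiaffineGroup (GaloisField p 3)), Function.Injective f) ∧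
      (p = 2 → Nonempty (↥N ⧸ Cfsg.pPrimeCore p ↥N ≃* Cfsg.semiaffineGroup (GaloisField 2 3)) ∨
               Nonempty (↥N ⧸ Cfsg.pPrimeCore p ↥N ≃* Cfsg.affineGroup (GaloisField 2 3)))) ∨
    (n = 5 ∧ p = 2 ∧ Nonempty (↥N ⧸ Cfsg.pPrimeCore p ↥N ≃* Cfsg.semiaffineGroup (GaloisField 2 5))) :=
  saf_main2 hub Cfsg.Agent.Lib.Helper62.SAF.pkgBr Cfsg.Agent.Lib.Helper74.SAF.pkgLin
    Cfsg.Agent.Lib.Helper62.SAF.pkgLtr Cfsg.Agent.Lib.Helper84.SAF.pkgKer'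
    Cfsg.Agent.Lib.Helper97.SAF.pkgEmb
    Cfsg.Agent.Lib.Helper84.SAF.pkgHApp Cfsg.Agent.Lib.Helper93.SAF.pkgSDiv
    Cfsg.Agent.Lib.Helper96.SAF.pkgArith
    Cfsg.Agent.Lib.Helper96.SAF.pkgArith81 Cfsg.Agent.Lib.Helper93.SAF.pkgOrd
    Cfsg.Agent.Lib.Helper84.SAF.pkgT1Div Cfsg.Agent.Lib.Helper74.SAF.pkgT2Div
    Cfsg.Agent.Lib.Helper93.SAF.pkgExc81
    Cfsg.Agent.Lib.Helper96.SAF.pkgIso2 Cfsg.Agent.Lib.Helper96.SAF.pkgIso5 hC P n hn hel hcard N hN hsolv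

end Cfsg.Agent.Lib.Helper49.SAFI
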